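import Cfsg.Agent.TwoF.XE.Num
import Cfsg.Agent.H203.LSE6
import Cfsg.Agent.H203.LSE7
import Cfsg.Agent.H203.LSE8
import Cfsg.Agent.H203.LSTwE6
import Cfsg.Agent.H733.RIM.TwE6
import Cfsg.Agent.H203.LSTwF4
import Cfsg.Agent.S1063
import Cfsg.Agent.S1064
import Cfsg.Agent.S1065
import Cfsg.Agent.S1066
import Cfsg.Agent.S1068
import Cfsg.Agent.S2105
import Cfsg.Agent.S2106
import Cfsg.Agent.S2107
import Cfsg.Agent.S2108
import Cfsg.Agent.S2109
import Cfsg.Agent.S2114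
import Cfsg.Agent.S2123
import Cfsg.Agent.S2124
import Cfsg.Agent.S2125
import Cfsg.Agent.S2128
import Cfsg.Agent.S2130

/-!
# TwoF / XE: the boxes `E₆`, `E₇`, `E₈`, `²E₆`, `²F₄` (helper6)
-/

set_option autoImplicit false

namespace Cfsg.Agent.TwoF.XE

open Cfsg.Lie

theorem boxE6 : Box fun K _ => IsoChevE6 K := by
  rintro p _ S _ _ _ ⟨F, _, _, ⟨e⟩⟩ hp -
  obtain ⟨r, f, hr, hc, hf, hF⟩ := exists_char F
  have : Fact r.Prime := ⟨hr⟩
  have hrp : r ≠ p := by
    rintro rfl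
    exact hp (by
      unfold IsLieTypeChar IsExceptionalChevChar
      exact .inr <| .inr <| .inr <| .inr <| .inr <| .inr <| .inl ⟨F, _, inferInstance, hc, .inr <| .inr <| .inl ⟨e⟩⟩)
  have : Finite (chevE6.group F) := Finite.of_equiv _ e.toEquiv
  have : Nontrivial (chevE6.group F) := e.symm.toEquiv.nontrivial
  have hq : 2 ≤ Fintype.card F := Fintype.one_lt_card
  have hfq : f ≤ Fintype.card F := hF ▸ exp_le hr.two_le
  have h1 := H203.LS.E6.ls.{0, 0, 0} (r := r) F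
  rw [Nat.card_eq_fintype_card] at h1
  refine (NoOff.of_equiv (noOff_of_ls' h1 hr hrp (S2105.result rfl) (Nat.gcd_pos_of_pos_left _ (by norm_num)).ne'
    le_rfl (S2123.result r f hF).le ?_) e).row
  rw [S1063.result rfl]
  generalize Fintype.card F = q at *
  refine sq_lt_of_le (a := 82) hq ?_ (lt_of_lt_of_le (by norm_num) (Nat.pow_le_pow_left hq 10))
  have h2 : 2 * 3 ≤ q ^ 3 := le_trans (by norm_num) (Nat.pow_le_pow_left hq 3)
  calc _ ≤ q ^ 36 * q ^ 2 * q ^ 5 * q ^ 6 * q ^ 8 * q ^ 9 * q ^ 12 * (q ^ 3 * q) := by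
        gcongr
        all_goals first | exact Nat.sub_le _ _ | exact (Nat.mul_le_mul_left 2 (gcd_three_le _)).trans h2
    _ = _ := by ring

theorem boxE7 : Box fun K _ => IsoE7 K := by
  rintro p _ S _ _ _ ⟨F, _, _, ⟨e⟩⟩ hp -
  obtain ⟨r, f, hr, hc, hf, hF⟩ := exists_char F
  have : Fact r.Prime := ⟨hr⟩
  have hrp : r ≠ p := by
    rintro rfl
    exact hp (by
      unfold IsLieTypeChar IsExceptionalChevChar
      exact .inr <| .inr <| .inr <| .inr <| .inr <| .inr <| .inl ⟨F, _, inferInstance, hc, .inr <| .inr <| .inr <| .inl ⟨e⟩⟩)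
  have : Finite (chevE7.group F) := Finite.of_equiv _ e.toEquiv
  have : Nontrivial (chevE7.group F) := e.symm.toEquiv.nontrivial
  have hq : 2 ≤ Fintype.card F := Fintype.one_lt_card
  have hfq : f ≤ Fintype.card F := hF ▸ exp_le hr.two_le
  have h1 := H203.LS.E7.ls.{0, 0, 0} (r := r) F
  rw [Nat.card_eq_fintype_card] at h1
  refine (NoOff.of_equiv (noOff_of_ls' h1 hr hrp (S2106.result rfl) (Nat.gcd_pos_of_pos_left _ (by norm_num)).ne'
    le_rfl (S2124.result r f hF).le ?_) e).row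
  rw [S1064.result rfl]
  generalize Fintype.card F = q at *
  refine sq_lt_of_le (a := 135) hq ?_ (lt_of_lt_of_le (by norm_num) (Nat.pow_le_pow_left hq 16))
  calc _ ≤ q ^ 63 * q ^ 2 * q ^ 6 * q ^ 8 * q ^ 10 * q ^ 12 * q ^ 14 * q ^ 18 * (q * q) := by
        gcongr
        all_goals first | exact Nat.sub_le _ _ | exact (gcd_two_le _).trans hq
    _ = _ := by ring

theorem boxE8 : Box fun K _ => IsoE8 K := by
  rintro p _ S _ _ _ ⟨F, _, _, ⟨e⟩⟩ hp -
  obtain ⟨r, f, hr, hc, hf, hF⟩ := exists_char F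
  have : Fact r.Prime := ⟨hr⟩
  have hrp : r ≠ p := by
    rintro rfl
    exact hp (by
      unfold IsLieTypeChar IsExceptionalChevChar
      exact .inr <| .inr <| .inr <| .inr <| .inr <| .inr <| .inl ⟨F, _, inferInstance, hc, .inr <| .inr <| .inr <| .inr ⟨e⟩⟩)
  have : Finite (chevE8.group F) := Finite.of_equiv _ e.toEquiv
  have : Nontrivial (chevE8.group F) := e.symm.toEquiv.nontrivial
  have hq : 2 ≤ Fintype.card F := Fintype.one_lt_card
  have hfq : f ≤ Fintype.card F := hF ▸ exp_le hr.two_le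
  have h1 := H203.LS.E8.ls.{0, 0, 0} (r := r) F
  rw [Nat.card_eq_fintype_card] at h1
  refine (NoOff.of_equiv (noOff_of_ls' h1 hr hrp S2107.result one_ne_zero
    le_rfl (S2125.result r f hF).le ?_) e).row
  rw [S1065.result rfl]
  generalize Fintype.card F = q at *
  refine sq_lt_of_le (a := 249) hq ?_ (lt_of_lt_of_le (by norm_num) (Nat.pow_le_pow_left hq 28))
  calc _ ≤ 1 * (q ^ 120 * q ^ 2 * q ^ 8 * q ^ 12 * q ^ 14 * q ^ 18 * q ^ 20 * q ^ 24 * q ^ 30) * q := by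
        gcongr
        all_goals exact Nat.sub_le _ _
    _ = _ := by ring

theorem box2E6 : Box fun K _ => Iso2E6 K := by
  rintro p _ S _ _ _ ⟨F, _, _, q, hqq, hK, ⟨e⟩⟩ hp -
  obtain ⟨r, f, hr, hc, hf, hF⟩ := exists_char' F hqq hK
  have : Fact r.Prime := ⟨hr⟩
  have hrp : r ≠ p := by
    rintro rfl
    exact hp (by
      unfold IsLieTypeChar IsTwistedE6D4Char
      exact .inr <| .inr <| .inr <| .inr <| .inr <| .inr <| .inr <| .inl ⟨F, _, _, hc, q, hqq, .inl ⟨hK, ⟨e⟩⟩⟩)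
  have : Finite (twistedE6 F q) := Finite.of_equiv _ e.toEquiv
  have : Nontrivial (twistedE6 F q) := e.symm.toEquiv.nontrivial
  have hq : 2 ≤ q := hqq.two_le
  have hfq : f ≤ q := hF ▸ exp_le hr.two_le
  have hO : Nat.card (Out (twistedE6 F q)) = 2 * Nat.gcd 3 (q + 1) * f := by
    subst hF
    exact S2130.result r f (by rw [hK, ← pow_mul, mul_comm]) hf
  have hS := S1066.result hqq hK
  by_cases h2 : q = 2
  · obtain rfl : r = 2 := (Nat.prime_dvd_prime_iff_eq hr Nat.prime_two).1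
      (h2 ▸ hF ▸ dvd_pow_self r (by omega))
    subst h2
    refine (NoOff.of_equiv (noOff_of_ls (z := 12) (s := 2 ^ 80) (o := 12) (H733.RIM.TwE6.ls.{0, 0, 0} hK) hr hrp
      (S2109.result hK) ?_ ?_ ?_ (sq_lt_pow (a := 88) (by norm_num) (by norm_num))) e).row
    · rw [Nat.card_congr Multiplicative.toAdd]
      simp
    · norm_num at hS ⊢
      omega
    · rw [hO]
      norm_num
      omega
  have hq3 : 3 ≤ q := by omega
  refine (NoOff.of_equiv (noOff_of_ls' (H203.LS.TwE6.ls.{0, 0, 0} hqq hK) hr hrp (S2108.result hqq hK h2)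
    (Nat.gcd_pos_of_pos_left _ (by norm_num)).ne' le_rfl hO.le ?_) e).row
  rw [hS]
  refine sq_lt_of_le (a := 84) hq ?_ (lt_of_lt_of_le (by norm_num) (Nat.pow_le_pow_left hq3 6))
  have h2 : 2 * 3 ≤ q ^ 3 := le_trans (by norm_num) (Nat.pow_le_pow_left hq 3)
  calc _ ≤ q ^ 36 * q ^ 2 * q ^ (5 + 1) * q ^ 6 * q ^ 8 * q ^ (9 + 1) * q ^ 12 * (q ^ 3 * q) := by
        gcongr
        all_goals first | exact Nat.sub_le _ _ | exact pow_add_one_le hq _ |
          exact (Nat.mul_le_mul_left 2 (gcd_three_le _)).trans h2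
    _ = _ := by ring

theorem box2F4 : Box fun K _ => Iso2F4 K := by
  rintro p _ S _ _ _ ⟨F, _, _, m, hm, hF, ⟨e⟩⟩ hp -
  have hrp : 2 ≠ p := by
    rintro rfl
    exact hp (by
      unfold IsLieTypeChar
      exact .inr <| .inr <| .inr <| .inr <| .inr <| .inr <| .inr <| .inr <| .inr <| .inl ⟨rfl, F, _, _, m, hm, hF, ⟨e⟩⟩)
  have : Finite (twistedF4 F (2 ^ m)) := Finite.of_equiv _ e.toEquiv
  have : Nontrivial (twistedF4 F (2 ^ m)) := e.symm.toEquiv.nontrivial
  have h1 := H203.LS.TwF4.ls.{0, 0, 0} hm hF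
  rw [Nat.card_eq_fintype_card, hF] at h1
  refine (NoOff.of_equiv (noOff_of_ls' h1 Nat.prime_two hrp (S2114.result hm hF) one_ne_zero
    le_rfl ((S2128.result hm hF).le.trans (exp_le le_rfl)) ?_) e).row
  rw [S1068.result hF]
  have h8 : 2 ^ 3 ≤ 2 ^ (2 * m + 1) := Nat.pow_le_pow_right (by norm_num) (by omega)
  generalize 2 ^ (2 * m + 1) = q at *
  have hq : 2 ≤ q := by omega
  refine sq_lt_of_le (a := 29) hq ?_ (lt_of_lt_of_le (by norm_num) (Nat.pow_le_pow_left h8 2))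
  calc _ ≤ 1 * (q ^ 12 * q * q ^ (3 + 1) * q ^ 4 * q ^ (6 + 1)) * q := by
        gcongr
        all_goals first | exact Nat.sub_le _ _ | exact pow_add_one_le hq _
    _ = _ := by ring

end Cfsg.Agent.TwoF.XE
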