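import Cfsg.Agent.TwoF.XE.Wt

/-!
# TwoF / XE : two more criteria for the rows (helper4)
-/

set_option autoImplicit false

namespace Cfsg.Agent.TwoF.XE

open Module Gen Subgroup

variable {p : ℕ} [Fact p.Prime] {S : Type} [Group S] [Finite S]

/-- a non-cubic offender would be a Sylow subgroup of `Aut S` -/
theorem row88_of_sylow (h : ¬ p ^ (small p + 2) ∣ Nat.card (MulAut S)) {α : MulAut S} (hα : α ^ p = 1)
    (hl : Le p α (2 * small p + 3)) : Row88 p S := row88_of_lo fun E hE r hr hc => by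
  have h1 := (Nat.pow_le_pow_iff_right (Fact.out : p.Prime).one_lt).1 (hc ▸ card_le_of_not_dvd h E hE)
  obtain rfl : r = small p + 1 := by omega
  obtain ⟨g, hg⟩ := exists_conj_le (elemAb_isPGroup hE) (fun d => h (by
    rw [← E.card_mul_index, hc, pow_succ p (small p + 1)]
    exact mul_dvd_mul_left _ d)) (elemAb_isPGroup (elemAb_zpowers hα))
  exact (hl.conj g).lo (hg ⟨α, mem_zpowers α, rfl⟩)

theorem row88_of_sylow' (h : ¬ p ^ (small p + 2) ∣ Nat.card (MulAut S)) {x : S} (hx : x ^ p = 1)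
    (hl : Li p x (2 * small p + 3)) : Row88 p S := row88_of_sylow h (by rw [← map_pow, hx, map_one]) hl

omit [Finite S] in
theorem not_elemAb_of_pow {G : Type*} [Group G] {a : G} {k : ℕ} (h1 : a ^ p ^ k = 1) (h2 : a ^ p ≠ 1) :
    IsPGroup p (zpowers a) ∧ ¬ IsElementaryAbelian p (zpowers a) := by
  refine ⟨fun g => ⟨k, Subtype.ext ?_⟩, fun h => h2 (h.2 a (mem_zpowers a))⟩
  obtain ⟨_, i, rfl⟩ := g
  show (a ^ i) ^ p ^ k = 1
  rw [← zpow_natCast, ← zpow_mul, mul_comm, zpow_mul, zpow_natCast, h1, one_zpow]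

end Cfsg.Agent.TwoF.XE
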