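import Cfsg.Agent.TwoF.XE.F42
import Cfsg.Agent.H92.ExcG24
import Cfsg.Agent.S2102
import Cfsg.Agent.S1055

/-!
# TwoF / XE : the row of `G₂(4)` (helper4)
-/

set_option autoImplicit false
set_option maxRecDepth 100000

namespace Cfsg.Agent.TwoF.XE

open Subgroup Gen

/-- an extraspecial subgroup -/
theorem exists_not_elemAb {p : ℕ} [Fact p.Prime] {G : Type*} [Group G] [Finite G] {a b z : G} (ha : a ^ p = 1)
    (hb : b ^ p = 1) (hz : z ^ p = 1) (h1 : a * z = z * a) (h2 : b * z = z * b) (h3 : b * a = a * z * b) (h4 : z ≠ 1) :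
    ∃ Q : Subgroup G, IsPGroup p Q ∧ ¬ IsElementaryAbelian p Q := by
  have ma : a ∈ zpowers z ⊔ zpowers a := mem_sup_right (mem_zpowers a)
  have mz : z ∈ zpowers z ⊔ zpowers a := mem_sup_left (mem_zpowers z)
  refine ⟨zpowers b ⊔ (zpowers z ⊔ zpowers a), (elemAb_isPGroup (elemAb_zpowers hb)).to_sup_of_normal_right'
    (elemAb_isPGroup (elemAb_of (comm_sup_zpowers h1) (exp_sup_zpowers h1 ha hz)))
    (zpowers_le.2 (mem_normalizer_fintype fun x hx => ?_)), fun h => h4 ?_⟩
  · have h5 : zpowers z ⊔ zpowers a ≤ (zpowers z ⊔ zpowers a).comap (MulAut.conj b).toMonoidHom := by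
      refine sup_le (zpowers_le.2 ?_) (zpowers_le.2 ?_)
      · show b * z * b⁻¹ ∈ zpowers z ⊔ zpowers a
        rwa [h2, mul_inv_cancel_right]
      · show b * a * b⁻¹ ∈ zpowers z ⊔ zpowers a
        rw [h3, mul_inv_cancel_right]
        exact mul_mem ma mz
    exact h5 hx
  · rw [elemAb_comm h (mem_sup_left (mem_zpowers b)) (mem_sup_right ma), mul_left_inj, left_eq_mul] at h3
    exact h3

namespace G24

open Cfsg.Lie SporRec.GF4 SporRec.G24Code SporRec.G24Mat H92.ExcG24

/-- words -/
abbrev Wd : Type := List (Fin 12 × Fin 3)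

/-- the element of a word -/
def w (l : Wd) : chevG2.group F4 := ⟨gw l, gw_mem l⟩

theorem w_nil : w [] = 1 := rfl

theorem w_append (l l' : Wd) : w (l ++ l') = w l * w l' := Subtype.ext (by
  show gw (l ++ l') = gw l * gw l'
  rw [gw, List.map_append, List.prod_append, gw, gw])

theorem w_reverse (l : Wd) : w l.reverse = (w l)⁻¹ := by
  induction l with
  | nil => exact inv_one.symm
  | cons q l ih =>
    rw [List.reverse_cons, w_append, ih, show w (q :: l) = w [q] * w l from w_append [q] l, mul_inv_rev, mul_right_inj,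
      eq_inv_iff_mul_eq_one]
    refine Subtype.ext (Units.ext ?_)
    show ((gx q.1 q.2 * 1) * (gx q.1 q.2 * 1) : GL J F4).1 = 1
    rw [mul_one]
    exact xm_mul_self _ _

/-- repetition -/
def rp (l : Wd) (n : ℕ) : Wd := Nat.rec [] (fun _ u => l ++ u) n

theorem w_rp (l : Wd) (n : ℕ) : w (rp l n) = w l ^ n := by
  induction n with
  | zero => rfl
  | succ n ih => rw [pow_succ', ← ih, ← w_append]; rfl

/-- equality of words -/
def eqw (l l' : Wd) : Bool := (List.range 14).all fun p => appL (cw l) (4 ^ p) == appL (cw l') (4 ^ p)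

theorem w_eq {l l' : Wd} (h : eqw l l' = true) : w l = w l' := Subtype.ext
  (prod_eq_of_check (forall2 l) (forall2 l') fun p hp => beq_iff_eq.1 (List.all_eq_true.1 h p (List.mem_range.2 hp)))

theorem w_ne {l l' : Wd} (h : eqw l l' = false) : w l ≠ w l' := fun e => by
  rw [← Bool.not_eq_true] at h
  refine h (List.all_eq_true.2 fun p hp => beq_iff_eq.2 ?_)
  obtain ⟨h1, h2⟩ := appL_spec (forall2 l) (four_lt (List.mem_range.1 hp))
  obtain ⟨h3, h4⟩ := appL_spec (forall2 l') (four_lt (List.mem_range.1 hp))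
  have h5 : gw l = gw l' := congrArg Subtype.val e
  exact dec_inj h1 h3 (by rw [h2, h4]; exact congrArg (fun g : GL J F4 => g.1.mulVec (dec (4 ^ p))) h5)

theorem card_F : Fintype.card F4 = 4 := rfl

theorem card_S : Nat.card (chevG2.group F4) = 251596800 := S1059.result card_F

theorem fin_S : Finite (chevG2.group F4) := Nat.finite_of_card_ne_zero (by rw [card_S]; norm_num)

theorem card_out : Nat.card (Out (chevG2.group F4)) = 2 :=
  haveI : CharP F4 2 := charP_of_card_eq_prime_pow (p := 2) (f := 2) card_F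
  S2121.result (F := F4) 2 2 card_F (by norm_num)

theorem center_S : center (chevG2.group F4) = ⊥ :=
  haveI := fin_S
  haveI := (S1055.result (F := F4) ⟨F4.w, by decide, by decide⟩).1
  center_eq_bot _ (by rw [card_S]; norm_num)

theorem card_A : Nat.card (MulAut (chevG2.group F4)) = 503193600 := by
  have := fin_S
  rw [card_aut center_S, card_S, card_out]

theorem li13 [Fact (Nat.Prime 5)] : ∀ x : chevG2.group F4, x ≠ 1 → x ^ 13 = 1 → Li 5 x 12 := by
  have := fin_S
  have h1 : w [(5, 0), (6, 0), (7, 0), (3, 1), (4, 1), (11, 1), (7, 0), (10, 1), (6, 0), (5, 0), (10, 1), (7, 0), (11, 1),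
      (4, 1), (3, 1), (7, 0)] ^ 13 = 1 := by
    rw [← w_rp, ← w_nil]
    exact w_eq (by decide +kernel)
  have h2 : w [(5, 0), (6, 0), (7, 0), (3, 1), (4, 1), (11, 1), (7, 0), (10, 1), (6, 0), (5, 0), (10, 1), (7, 0), (11, 1),
      (4, 1), (3, 1), (7, 0)] ≠ 1 := by
    rw [← w_nil]
    exact w_ne (by decide +kernel)
  refine li_rank_one_all (by norm_num) h1 h2 (by rw [card_S]; norm_num)
    (Li.of_rat (i := 3) (g := w [(6, 0), (5, 0)]) (zc_of_cyclic (S2102.result card_F)) (by norm_num) (by norm_num)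
      (by norm_num) h2 h1 ?_ (List.range 3 ×ˢ List.range 4) (by decide))
  rw [← w_rp, ← w_append, ← w_append]
  exact w_eq (by decide +kernel)

theorem row88 (p : ℕ) [hp : Fact p.Prime] (h2 : p ≠ 2) : Row88 p (chevG2.group F4) := by
  have := fin_S
  by_cases h3 : p = 3
  · subst h3
    obtain ⟨Q, h4, h5⟩ := exists_not_elemAb (p := 3) (a := w [(6, 0), (5, 1), (6, 1), (5, 0)])
      (b := w [(6, 0), (5, 0), (6, 0), (10, 0), (1, 0), (10, 0)])
      (z := (w [(6, 0), (5, 1), (6, 1), (5, 0)])⁻¹ * (w [(6, 0), (5, 0), (6, 0), (10, 0), (1, 0), (10, 0)] *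
        w [(6, 0), (5, 1), (6, 1), (5, 0)] * (w [(6, 0), (5, 0), (6, 0), (10, 0), (1, 0), (10, 0)])⁻¹))
      (by rw [← w_rp, ← w_nil]; exact w_eq (by decide +kernel))
      (by rw [← w_rp, ← w_nil]; exact w_eq (by decide +kernel))
      (by simp only [← w_reverse, ← w_append, ← w_rp]; rw [← w_nil]; exact w_eq (by decide +kernel))
      (by simp only [← w_reverse, ← w_append]; exact w_eq (by decide +kernel))
      (by simp only [← w_reverse, ← w_append]; exact w_eq (by decide +kernel)) (by group)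
      (by simp only [← w_reverse, ← w_append]; rw [← w_nil]; exact w_ne (by decide +kernel))
    exact row88_of_rank (card_le_of_inner center_S (by rw [card_out]; norm_num)
      (card_le_of_not_elemAb (by rw [card_S]; decide) h4 h5))
  by_cases h5 : p = 5
  · subst h5
    refine row88_of_sylow' (by rw [card_A]; decide) (x := w [(3, 0), (8, 1)]) ?_
      (Li.two (w [(6, 0), (9, 0)]) (li13 _ ?_ ?_) (by decide))
    all_goals
      simp only [← w_reverse, ← w_append, ← w_rp]
      rw [← w_nil]
    · exact w_eq (by decide +kernel)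
    · exact w_ne (by decide +kernel)
    · exact w_eq (by decide +kernel)
  refine row88_of_not_dvd fun e => ?_
  rw [card_A, small_of_ne h2 h3] at e
  have h4 := (Nat.mem_primeFactorsList (by norm_num)).2 ⟨hp.out, (dvd_pow_self p two_ne_zero).trans e⟩
  simp only [Nat.primeFactorsList_ofNat, List.mem_cons, List.not_mem_nil, or_false, h2, h3, h5, false_or] at h4
  rcases h4 with rfl | rfl <;> norm_num at e

theorem row (p : ℕ) [hp : Fact p.Prime] (F : Type) [Field F] [Fintype F] (hF : Fintype.card F = 4) (h2 : p ≠ 2) :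
    Row p (chevG2.group F) :=
  Row.of_equiv ⟨row88 p h2, row89_of_not_dvd (by rwa [card_out, Nat.prime_dvd_prime_iff_eq hp.out Nat.prime_two])⟩
    (ChevalleyStructure.FieldIso.groupEquiv chevG2
      (FiniteField.ringEquivOfCardEq (by rw [card_F, hF]) : F4 ≃+* F)).symm

end G24

end Cfsg.Agent.TwoF.XE
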