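import Cfsg.Agent.TwoF.XE.G23
import Cfsg.Agent.TwoF.XE.G24
import Cfsg.Agent.TwoF.XE.LB

/-!
# TwoF / XE : the box of the groups `G₂(q)` (helper98)
-/

set_option autoImplicit false

namespace Cfsg.Agent.TwoF.XE

theorem boxG2 : Box fun K _ => Lie.IsoChevG2 K :=
  boxG2_of (fun p _ F _ _ => G23.row p F) (fun p _ F _ _ => G24.row p F) (fun p _ F _ _ => LB.g2_57 p F)
    fun F _ _ => LB.g2_nine F

end Cfsg.Agent.TwoF.XE
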