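import Cfsg.Agent.TwoF.XE.Wt
import Cfsg.Agent.TwoF.XE.Mid
import Cfsg.Agent.H70.SzAutThm
import Cfsg.Agent.S1162
import Cfsg.Agent.S2112

/-!
# TwoF / XE : the box of the Suzuki groups (helper4)
-/

set_option autoImplicit false

namespace Cfsg.Agent.TwoF.XE

open Cfsg.Lie Subgroup Gen ThreePrime ThreePrime.SzRel LieRecognition.SzMatrix H70.SzOut

theorem row_sz8 (p : ℕ) [hp : Fact p.Prime] (F : Type) [Field F] [Fintype F] (hF : Fintype.card F = 8) (h2 : p ≠ 2) :
    Row p (Lie.Sz F (2 ^ (1 + 1))) := by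
  have hF' : Fintype.card F = 2 ^ (2 * 1 + 1) := hF
  have : IsSimpleGroup (Lie.Sz F (2 ^ (1 + 1))) := S1162.result le_rfl hF'
  have hS : Nat.card (Lie.Sz F (2 ^ (1 + 1))) = 29120 := (S1163.result le_rfl hF').1
  have : Finite (Lie.Sz F (2 ^ (1 + 1))) := Nat.finite_of_card_ne_zero (by rw [hS]; norm_num)
  have hO : Nat.card (Out (Lie.Sz F (2 ^ (1 + 1)))) = 3 := S2126.result le_rfl hF'
  have hZ := center_eq_bot (Lie.Sz F (2 ^ (1 + 1))) (by rw [hS]; norm_num)
  have hA := card_aut hZ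
  rw [hS, hO] at hA
  by_cases h3 : p ≠ 3
  · refine ⟨row88_of_not_dvd ?_, row89_of_not_dvd ?_⟩
    · rw [hA, small_of_ne h2 h3]
      intro e
      have h4 : p ∣ 2 ^ 6 * 3 * 5 * 7 * 13 := (dvd_pow_self p two_ne_zero).trans e
      simp only [hp.out.dvd_mul, hp.out.prime.dvd_pow_iff_dvd, Nat.prime_dvd_prime_iff_eq hp.out, ne_eq,
        OfNat.ofNat_ne_zero, not_false_eq_true, Nat.prime_two, Nat.prime_three, Nat.prime_five, Nat.prime_seven,
        show Nat.Prime 13 by norm_num] at h4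
      rcases h4 with (((rfl | rfl) | rfl) | rfl) | rfl <;> simp_all
    · rw [hO, Nat.prime_dvd_prime_iff_eq hp.out Nat.prime_three]
      exact h3
  obtain rfl : p = 3 := not_not.1 h3
  refine (noOff_of_le (r₀ := 1) (card_le_of_not_dvd (by rw [hA]; norm_num)) fun α h4 h5 => ?_).row
  have : CharP F 2 := charP_of_card_eq_prime_pow hF'
  obtain ⟨k, hk⟩ := exists_prime_orderOf_dvd_card' (G := Fˣ) 7 (hp := ⟨Nat.prime_seven⟩)
    (by rw [Nat.card_units, Nat.card_eq_fintype_card, hF])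
  let R := ofGood (good hF')
  let d : Fˣ →* Lie.Sz F (2 ^ (1 + 1)) := MonoidHom.mk' R.d fun k l => (R.d_mul k l).symm
  have hd : Function.Injective d := fun k l e => (good hF').d_inj e
  let σ : MulAut (Lie.Sz F (2 ^ (1 + 1))) := fieldAut (good hF') (frobeniusEquiv F 2)
  have h6 : σ (d k) = d k ^ 2 := by
    rw [← map_pow]
    exact (fieldAut_d _ _ k).trans (congrArg d (Units.ext rfl))
  have h7 : d k ^ 7 = 1 := by rw [← map_pow, ← hk, pow_orderOf_eq_one, map_one]
  have h8 : d k ≠ 1 := fun e => by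
    rw [hd (e.trans (map_one d).symm), orderOf_one] at hk
    omega
  have h9 : σ (d k) ≠ d k := fun e => h8 (mul_eq_left.1 ((pow_two (d k)).symm.trans (h6.symm.trans e)))
  have h10 : σ ^ 3 = 1 := by
    rw [← map_pow, show frobeniusEquiv F 2 ^ 3 = 1 from RingEquiv.ext fun x => ?_, map_one]
    show ((x ^ 2) ^ 2) ^ 2 = x
    rw [← pow_mul, ← pow_mul]
    have := FiniteField.pow_card x
    rwa [hF] at this
  have h11 : orderOf σ = 3 := orderOf_eq_prime h10 fun e => h9 (by rw [e]; rfl)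
  have h12 : Le 3 σ 3 := Le.of_frob (t := 3) (j := 1) (n := 6) (show Zc 3 (Lie.Sz F (2 ^ (1 + 1))) _ from zc_of_mult (S2112.result hF)) Nat.prime_seven
    (by rw [Nat.card_eq_fintype_card]; decide) (by norm_num) h10 h7 (h6 ▸ pow_mem (mem_zpowers _) 2) h9
    (Li.of_prime hZ Nat.prime_seven (by norm_num) h8 h7 (fun d _ _ => by interval_cases d <;> norm_num)) (by norm_num)
  refine le_of_sylow (elemAb_isPGroup (elemAb_zpowers h10)) (fun e => ?_) (fun β hβ h13 _ => h12.lo ?_) h4 h5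
  · have := (zpowers σ).card_mul_index
    rw [Nat.card_zpowers, h11, hA] at this
    omega
  · obtain ⟨i, hi⟩ := mem_zpowers_of_prime_card (G := zpowers σ) (by rw [Nat.card_zpowers, h11])
      (g := ⟨β, hβ⟩) (g' := ⟨σ, mem_zpowers σ⟩) fun e => h13 (congrArg Subtype.val e)
    exact ⟨i, congrArg Subtype.val hi⟩

theorem boxSz : Box fun K _ => IsoSuzuki K := boxSz_of fun p _ F _ _ => row_sz8 p F

end Cfsg.Agent.TwoF.XE
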