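import Cfsg.Agent.TwoF.XE.Crit
import Cfsg.Agent.TwoF.XE.Mid
import Cfsg.Agent.H83.MeetTD4
import Cfsg.Agent.H379.TD.Seven

/-!
# TwoF / XE : the box of the groups `³D₄(q)` (helper4)
-/

set_option autoImplicit false

namespace Cfsg.Agent.TwoF.XE.TD4

open Cfsg.Lie Subgroup Gen TypeD4Two H379.TD H83.MeetTD4

/-- `c` is the code of `g` -/
def Rp (g : M) (c : ℕ) : Prop := ap g = lin c

theorem Rp.mul {g h : M} {c e : ℕ} (h1 : Rp g c) (h2 : Rp h e) : Rp (g * h) (mulC c e) := by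
  rw [Rp, ap_mul', lin_mulC, h1, h2]

theorem Rp.pow {g : M} {c : ℕ} (h1 : Rp g c) (k : ℕ) : Rp (g ^ k) (powC c k) := by
  rw [Rp, ap_pow, lin_powC, h1]

theorem Rp.eq_one {g : M} (h1 : Rp g oneC) : g = 1 := Subtype.ext (Units.ext (h1.trans lin_one))

theorem Rp.inv {g h : M} {c e : ℕ} (h1 : Rp g c) (h2 : Rp h e) (h3 : mulC c e = oneC) : Rp g⁻¹ e := by
  rwa [inv_eq_of_mul_eq_one_right (Rp.eq_one (h3 ▸ h1.mul h2))]

theorem Rp.ne_one {g : M} {c : ℕ} (h1 : Rp g c) (h2 : c < 8 ^ 64) (h3 : c ≠ oneC) : g ≠ 1 := fun e => by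
  rw [e] at h1
  exact h3 (lin_inj h2 (encF_lt _ _) (h1.symm.trans lin_one.symm))

theorem wv_lt (l : List ℕ) : wv l < 8 ^ 64 := by
  cases l with
  | nil => exact encF_lt _ _
  | cons k l => exact mulC_lt _ _

theorem wm_ne {l l' : List ℕ} (h : wv l ≠ wv l') : wm l ≠ wm l' := fun e =>
  h (lin_inj (wv_lt l) (wv_lt l') (by rw [← ap_wm, e, ap_wm]))

theorem zc (p : ℕ) : Zc p M 1 := by
  obtain ⟨e⟩ := iso_M F8 F8.card_F8
  exact (zc_of_cyclic (S2110.result (q := 2) Nat.prime_two.isPrimePow F8.card_F8)).of_equiv e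

theorem center_M : center M = ⊥ :=
  haveI := simple_M.1
  center_eq_bot M (by rw [card_M]; norm_num)

theorem card_out : Nat.card (Out M) = 3 := by
  have := XE.card_aut center_M
  rw [H83.MeetTD4.card_aut, card_M] at this
  omega

theorem wm_nil : wm [] = 1 := rfl

theorem li_seven [Fact (Nat.Prime 3)] : ∀ x : M, x ≠ 1 → x ^ 7 = 1 → Li 3 x 18 := by
  refine li_rank_two_all (zc 3) Nat.prime_seven (by norm_num) (by norm_num) d_y2.eq.symm d_pow y2_pow ?_ ?_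
    (by rw [card_M]; norm_num) [(1, 0, 0, 2), (3, 2, 1, 2)] ?_ (N := 6) (by decide +kernel)
  · rw [← wm_nil]
    exact wm_ne (by decide +kernel)
  · intro i hi
    rw [d, ← wm_wp]
    exact wm_ne (by revert i; decide +kernel)
  · simp only [List.mem_cons, List.not_mem_nil, or_false, forall_eq_or_imp, forall_eq, d, y2]
    refine ⟨⟨wm [4, 3, 4, 2, 4, 2, 3], ?_, ?_⟩, ⟨wm [1, 0, 2, 1, 0, 0, 4, 1, 0, 2, 4, 2, 1, 0, 3, 4, 1], ?_, ?_⟩⟩
    all_goals
      simp only [← wm_wp, ← wm_append]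
      exact wm_eq (by decide +kernel)

/-- the `k`-th power has order seven -/
def ok7 (c k : ℕ) : Bool :=
  (fun u => u != oneC && (fun v => mulC (mulC v v) u == oneC) (mulC (mulC u u) u)) (powC c k)

theorem li_ok [Fact (Nat.Prime 3)] {g : M} {c k : ℕ} (h1 : Rp g c) (h : ok7 c k = true) : Li 3 g 18 := by
  rw [ok7, Bool.and_eq_true, bne_iff_ne, beq_iff_eq] at h
  have h2 := h1.pow k
  have h3 := (h2.mul h2).mul h2
  refine Li.of_pow k (li_seven _ (h2.ne_one ?_ h.1) ?_)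
  · cases k with
    | zero => exact encF_lt _ _
    | succ k => exact mulC_lt _ _
  · rw [← Rp.eq_one (h.2 ▸ (h3.mul h3).mul h2)]
    simp only [pow_succ (g ^ k), pow_zero, one_mul, mul_assoc]

/-- conjugating elements: word, code, code of the inverse, code of the image under `psi` -/
def Gs : List (List ℕ × ℕ × ℕ × ℕ) := [
  ([2, 0, 0, 0], 0x100000e000000001c0000c00003000020000000004000038,
    0x100000e000000001c0000c00003000020000000004000038, 0x5c000048000002950002d480029a4002db40000017000012),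
  ([1, 2, 0, 4, 3, 0, 4], 0x140000540000000080000e8000408002ce80140005540015,
    0xb40000400000012480038e00024000028000b4002d400010, 0x940000ec000003d280031b0001e8c0027580940025ec003b),
  ([0, 3, 4, 5, 1, 5], 0x6000000300007800000350000304006000180354c078001e,
    0xc000006180000c0000082000140a00186c30c001806180c3, 0xa00000810000280000a5f000f788007e342800cd4029f30a),
  ([4, 1, 3, 0, 3], 0xc00000018000cc000001a000018a0000003001ab80000033,
    0x600000c300001800001450000804000c36180000c0000186, 0x400000c28000b40000fe4000db8e006f9c10012480036dad),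
  ([3, 4, 0, 3, 2, 5, 1], 0x48000002db40a0000002080003f000480012490000a2db68,
    0x10000a10000a00028a00828a07028a87828090002a90142, 0x2c000074df80c00000610a008220006f9c0b2d8000b65fb0)]

/-- an entry of the list -/
def gq (j : ℕ) : List ℕ × ℕ × ℕ × ℕ := Gs.getD j ([], oneC, oneC, oneC)

theorem Gs_ok : ∀ q ∈ ([], oneC, oneC, oneC) :: Gs, wv q.1 = q.2.1 ∧ wv (wi q.1) = q.2.2.1 ∧
    wv (wd ++ fw q.1 ++ wi wd) = q.2.2.2 := by decide +kernel

theorem gq_ok (j : ℕ) : ∃ g : M, Rp g (gq j).2.1 ∧ Rp g⁻¹ (gq j).2.2.1 ∧ Rp (psi g) (gq j).2.2.2 := by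
  obtain ⟨h1, h2, h3⟩ := Gs_ok (gq j) (by
    rw [gq, List.getD_eq_getElem?_getD]
    cases e : Gs[j]? with
    | none => exact List.mem_cons_self
    | some q => exact List.mem_cons_of_mem _ (List.mem_of_getElem? e))
  exact ⟨wm _, by rw [← h1]; exact ap_wm _, by rw [← wm_wi, ← h2]; exact ap_wm _,
    by rw [psi_wm, ← h3]; exact ap_wm _⟩

/-- certificates for the inner elements -/
def CI : List (ℕ × ℕ) := [
  (0, 0), (0, 1), (1, 1), (3, 1), (0, 1), (0, 1), (3, 1), (1, 1), (0, 1), (3, 1), (0, 3), (1, 1), (2, 4), (1, 1),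
  (1, 1), (2, 1), (1, 1), (0, 3), (3, 1), (0, 3), (1, 1), (2, 1), (1, 1), (1, 1), (2, 4), (1, 1), (0, 3), (2, 1),
  (3, 1), (1, 2), (4, 1), (3, 2), (2, 3), (3, 1), (1, 2), (2, 1), (4, 1), (0, 3), (0, 3), (3, 1), (1, 2), (2, 1),
  (2, 1), (0, 3), (1, 2), (2, 1), (1, 2), (0, 3), (2, 1), (4, 3), (1, 2), (3, 1), (3, 3), (3, 2), (2, 1), (2, 1),
  (1, 2), (3, 1), (0, 3), (3, 3), (4, 1), (1, 2), (4, 3), (3, 1), (1, 2), (0, 3), (2, 1), (2, 1), (1, 2), (2, 1),
  (2, 3), (0, 3), (3, 1), (3, 2), (3, 2), (4, 1), (1, 2), (3, 1), (2, 1), (0, 3), (1, 2)]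

/-- certificates for the outer elements -/
def CO : List (ℕ × ℕ × ℕ) := [
  (1, 1, 0), (0, 1, 8), (1, 1, 7), (1, 1, 6), (0, 1, 5), (0, 1, 4), (1, 1, 3), (4, 4, 2), (0, 1, 1), (1, 3, 18),
  (0, 1, 26), (4, 1, 25), (1, 3, 24), (0, 1, 23), (0, 1, 22), (1, 3, 21), (3, 3, 20), (0, 1, 19), (1, 3, 9),
  (0, 1, 17), (1, 3, 16), (2, 1, 15), (0, 1, 14), (0, 1, 13), (1, 3, 12), (3, 2, 11), (0, 1, 10), (1, 3, 54),
  (0, 3, 77), (0, 3, 64), (2, 1, 60), (2, 2, 74), (0, 3, 70), (1, 4, 57), (3, 2, 80), (0, 3, 67), (1, 3, 75),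
  (0, 3, 71), (0, 3, 58), (1, 3, 72), (0, 3, 68), (3, 2, 55), (4, 3, 78), (2, 2, 65), (0, 3, 61), (3, 4, 69),
  (1, 2, 56), (1, 2, 79), (2, 3, 66), (0, 3, 62), (4, 2, 76), (4, 3, 63), (3, 2, 59), (0, 3, 73), (1, 3, 27),
  (0, 3, 41), (0, 3, 46), (1, 3, 33), (3, 2, 38), (0, 3, 52), (2, 3, 30), (0, 3, 44), (0, 3, 49), (3, 4, 51),
  (1, 2, 29), (1, 2, 43), (3, 3, 48), (0, 3, 35), (0, 3, 40), (2, 4, 45), (0, 3, 32), (2, 2, 37), (1, 3, 39),
  (0, 3, 53), (0, 3, 31), (1, 3, 36), (0, 3, 50), (0, 3, 28), (4, 3, 42), (0, 3, 47), (0, 3, 34)]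

/-- the check for an inner element -/
def cI (h : ℕ) (c : ℕ × ℕ) : Bool := ok7 (mulC h (mulC (mulC (gq c.1).2.1 h) (gq c.1).2.2.1)) c.2

/-- the check for an outer element -/
def cO (h : ℕ) (c : ℕ × ℕ × ℕ) : Bool := c.2.2 < 81 && mulC h (T3.getD c.2.2 0) == oneC &&
  ok7 (mulC (mulC (mulC h (gq c.1).2.2.2) (T3.getD c.2.2 0)) (gq c.1).2.2.1) c.2.1

theorem CI_ok : ∀ m : Fin 81, m.1 = 0 ∨ cI (T3.getD m.1 0) (CI.getD m.1 (0, 0)) = true := by
  decide +kernel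

theorem CO_ok : ∀ m : Fin 81, cO (T3.getD m.1 0) (CO.getD m.1 (0, 0, 0)) = true := by
  decide +kernel

theorem li_cI [Fact (Nat.Prime 3)] {h : M} {a : ℕ} {c : ℕ × ℕ} (h1 : Rp h a) (e : cI a c = true) : Li 3 h 9 := by
  obtain ⟨g, g1, g2, -⟩ := gq_ok c.1
  exact Li.two g (li_ok (h1.mul ((g1.mul h1).mul g2)) e) (by norm_num)

theorem le_cO [Fact (Nat.Prime 3)] {h : M} {a : ℕ} {c : ℕ × ℕ × ℕ} (h1 : Rp h a) (e : cO a c = true) :
    Le 3 (MulAut.conj h * psi) 9 := by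
  rw [cO, Bool.and_eq_true, Bool.and_eq_true, decide_eq_true_eq, beq_iff_eq] at e
  obtain ⟨g, -, g2, g3⟩ := gq_ok c.1
  have h2 : Rp _ (T3.getD c.2.2 0) := (ap_F _).trans (congrArg lin (cf_eq ⟨_, e.1.1⟩))
  exact Le.comm g (li_ok (((h1.mul g3).mul (h1.inv h2 e.1.2)).mul g2) e.2) (by norm_num)

theorem li_three [Fact (Nat.Prime 3)] {h : M} (hh : h ∈ K3) (h1 : h ≠ 1) : Li 3 h 9 := by
  obtain ⟨m, e1, e2⟩ := exists_code hh
  rcases CI_ok m with e | e
  · exact (h1 (by rw [e1, e]; simp [F])).elim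
  · exact li_cI e2 e

theorem le_outer [Fact (Nat.Prime 3)] {h : M} (hh : h ∈ K3) : Le 3 (MulAut.conj h * psi) 9 := by
  obtain ⟨m, -, e2⟩ := exists_code hh
  exact le_cO e2 (CO_ok m)

theorem noOff_three [Fact (Nat.Prime 3)] : NoOff 3 M := by
  have h0 := not_elemAb_of_pow (p := 3) (k := 2) (a := MulAut.conj x) (by rw [← map_pow, show x ^ 3 ^ 2 = 1 from x_pow, map_one])
    (by
      rw [← map_pow, Ne, conj_eq_one_iff center_M, x, ← wm_wp, ← wm_nil]
      exact wm_ne (by decide +kernel))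
  refine noOff_of_le (r₀ := 4) (card_le_of_not_elemAb (by rw [H83.MeetTD4.card_aut]; norm_num) h0.1 h0.2)
    fun α h1 h2 => le_of_sylow isPGroup_P3 index_P3 ?_ h1 h2
  rintro _ ⟨h, hh, i, rfl⟩ h3 -
  rw [pow_eq_pow_mod i psi3] at h3 ⊢
  obtain e | e | e : i % 3 = 0 ∨ i % 3 = 1 ∨ i % 3 = 2 := by omega
  · rw [e, pow_zero, mul_one] at h3 ⊢
    exact li_three hh fun e' => h3 (by rw [e', map_one])
  · rw [e, pow_one]
    exact le_outer hh
  · refine Le.of_pow 2 ?_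
    rw [e, pow_two (_ * _), mul_form, pow_eq_pow_mod (2 + 2) psi3, pow_one]
    exact le_outer (mul_mem hh (psi_pow_mem hh 2))

theorem row88_seven [Fact (Nat.Prime 7)] : Row88 7 M := by
  refine row88_of_sylow' (by rw [H83.MeetTD4.card_aut]; decide) (x := wm [0, 3, 4, 2, 4, 2]) ?_
    (Li.two (wm [1, 5, 2, 1]) (Li.of_prime (s := 13) (n := 12) center_M (by norm_num) (by norm_num) ?_ ?_
      fun d _ _ => by interval_cases d <;> norm_num) (by decide))
  all_goals simp only [← wm_wi, ← wm_append, ← wm_wp]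
  · exact wm_one (by decide +kernel)
  · rw [← wm_nil]
    exact wm_ne (by decide +kernel)
  · exact wm_one (by decide +kernel)

theorem row (p : ℕ) [hp : Fact p.Prime] (h2 : p ≠ 2) : Row p M := by
  by_cases h3 : p = 3
  · subst h3
    exact noOff_three.row
  refine ⟨?_, row89_of_not_dvd (by rwa [card_out, Nat.prime_dvd_prime_iff_eq hp.out Nat.prime_three])⟩
  by_cases h7 : p = 7
  · subst h7
    exact row88_seven
  refine row88_of_not_dvd fun e => ?_
  rw [H83.MeetTD4.card_aut, small_of_ne h2 h3] at e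
  have h4 := (Nat.mem_primeFactorsList (by norm_num)).2 ⟨hp.out, (dvd_pow_self p two_ne_zero).trans e⟩
  simp only [Nat.primeFactorsList_ofNat, List.mem_cons, List.not_mem_nil, or_false, h2, h3, h7,
    false_or] at h4
  subst h4
  norm_num at e

end TD4

theorem box3D4 : Box fun K _ => Lie.Iso3D4 K := box3D4_of fun p _ F _ _ hF hp => by
  obtain ⟨e⟩ := H379.TD.iso_M F hF
  exact (TD4.row p hp).of_equiv e.symm

end Cfsg.Agent.TwoF.XE
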