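import Cfsg.Agent.TwoF.XE.Wt
import Cfsg.Agent.TwoF.SpD.Blk
import Cfsg.Agent.TAB.Sm2.Tits
import Cfsg.Agent.Mrg.Omega.TwoF.Tits
import Cfsg.Agent.H648.EPV.Tits24
import Cfsg.Agent.H867.TitsOut
import Cfsg.Agent.TitsK.RankRK
import Cfsg.Agent.TitsK.SheetT
import Cfsg.Agent.S2115

/-!
# TwoF XE : the row of the Tits group (helper63)

The elements of order 5 move a space of codimension at least 20 (`p = 2, 3`); every element of order 2 or 3 has a
conjugate such that the product of the two has order 5.  For `p ≥ 5` the degree of a faithful module is at least 24.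
-/

set_option autoImplicit false
set_option maxRecDepth 100000

namespace Cfsg.Agent.TwoF.XE.Tits

open Cfsg Subgroup Cfsg.Agent.TwoF.Gen Cfsg.Agent.TAB.Eng Cfsg.Agent.TAB.Use Cfsg.Agent.TAB.Sm2
open Cfsg.Agent.Omega.TwoF (TitsAut.exists_equiv TitsAut.card_iso TitsAut.finite_iso TitsAut.center_iso)
open Cfsg.Agent.Omega.TwoF.Scalar (px qx)
open Cfsg.Agent.Omega.TwoF.Tits (pb qb)

variable {S : Type} [Group S]

/-- a group of order 25 and the action of its normaliser -/
def Five (S : Type) [Group S] : Prop :=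
  ∃ a b : S, b * a = a * b ∧ a ^ 5 = 1 ∧ b ^ 5 = 1 ∧ a ≠ 1 ∧ (∀ i < 5, a ^ i ≠ b) ∧
    ∀ k : Fin 6, ∃ g, a * g = g * (a ^ px k * b ^ qx k) ∧ b * g = g * (a ^ pb k * b ^ qb k)

theorem Five.of_equiv {T : Type} [Group T] (h : Five T) (e : S ≃* T) : Five S := by
  obtain ⟨a, b, h1, h2, h3, h4, h5, h6⟩ := h
  refine ⟨e.symm a, e.symm b, by rw [← map_mul, h1, map_mul], by rw [← map_pow, h2, map_one],
    by rw [← map_pow, h3, map_one], fun h => h4 (e.symm.map_eq_one_iff.1 h),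
    fun i hi h => h5 i hi (e.symm.injective (by rw [map_pow, h])), fun k => ?_⟩
  obtain ⟨g, h7, h8⟩ := h6 k
  exact ⟨e.symm g, by simpa only [map_mul, map_pow] using congrArg e.symm h7,
    by simpa only [map_mul, map_pow] using congrArg e.symm h8⟩

theorem mul_inv_of {G : Type*} [Group G] {x a c : G} (h : x * a * x⁻¹ = c) : a * x⁻¹ = x⁻¹ * c := by
  rw [← h]
  group

theorem five_C : Five Omega.TwoF.Tits.C :=
  ⟨Omega.TwoF.Tits.a, Omega.TwoF.Tits.b, Omega.TwoF.Tits.comm_ab.symm, Omega.TwoF.Tits.a5, Omega.TwoF.Tits.b5,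
    Omega.TwoF.Tits.a1, fun i _ e => Omega.TwoF.Tits.b1 (e ▸ pow_mem (mem_zpowers _) i),
    fun k => ⟨(Omega.TwoF.Tits.x k)⁻¹, mul_inv_of (Omega.TwoF.Tits.x_a k), mul_inv_of (Omega.TwoF.Tits.x_b k)⟩⟩

theorem five (h : Lie.IsoTits S) : Five S := by
  obtain ⟨T, rfl, ⟨e⟩⟩ := TitsAut.exists_equiv h
  exact five_C.of_equiv e

/-- the matrices of the normaliser -/
def Ms : List (ℕ × ℕ × ℕ × ℕ) := (List.finRange 6).map fun k => (px k, qx k, pb k, qb k)

theorem zc (h : Lie.IsoTits S) (p : ℕ) : Zc p S 1 := by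
  obtain ⟨e⟩ := h
  exact (zc_of_cyclic S2115.result).of_equiv e

theorem card_eq (h : Lie.IsoTits S) : Nat.card S = 17971200 := (TitsAut.card_iso h).trans (by norm_num)

/-- the elements of order 5 -/
theorem li_five (h : Lie.IsoTits S) {p : ℕ} [Fact p.Prime] (hp : 5 ≠ p)
    (hc : chk 5 ((p, 0, 0, p) :: Ms) 3 20 (pts 5) = true) (x : S) (h1 : x ≠ 1) (h2 : x ^ 5 = 1) : Li p x 20 := by
  have := TitsAut.finite_iso h
  obtain ⟨a, b, h3, h4, h5, h6, h7, h8⟩ := five h
  refine li_rank_two_all (zc h p) Nat.prime_five (Nat.coprime_one_right 5) hp h3 h4 h5 h6 h7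
    (by rw [card_eq h]; norm_num) Ms (fun M hM => ?_) hc x h1 h2
  obtain ⟨k, -, rfl⟩ := List.mem_map.1 hM
  exact h8 k

/-- the certificate for the class of elements of order 5 -/
def z5 : List ℤ := [718848, 27648, 0, 0, 2048, 0, 0, 1248, 13824, 26624, 1024, -576, 1024, 0, -351]

/-- products of order 5 -/
theorem exists_prod (h : Lie.IsoTits S) {x : S} (hx : orderOf x = 2 ∨ orderOf x = 3) :
    ∃ g, orderOf (g * x * g⁻¹ * x) = 5 := by
  have := TitsAut.finite_iso h
  obtain ⟨T, hm, hT, ht⟩ := Tits.tab_of h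
  have key : ∀ s c, T.ty x = s → s ∈ [1, 2, 3, 7] → Tits.dat.cnt s * c = Tits.dat.N → 0 < Tits.dat.cnt s →
      SpD.Blk.okB Tits.dat (mkRows Tits.rA Tits.rB) (fun u => u == 7) s c s c z5 = true →
      ∃ g, orderOf (g * x * g⁻¹ * x) = 5 := fun s c h1 h2 h3 h4 h5 => by
    have h6 : Nat.card (centralizer ({x} : Set S)) = c :=
      Nat.eq_of_mul_eq_mul_left h4 (((hT.one s h2).card hm h1).trans h3.symm)
    obtain ⟨g, hg⟩ := SpD.Blk.exists_prod ht hm.1 (SpO.ty_one (by decide +kernel)) h5 h1 h1 h6 h6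
    exact ⟨g, by rw [T.ord, beq_iff_eq.1 hg]; rfl⟩
  rw [T.ord] at hx
  rcases (by decide +kernel : ∀ i < 15, Tits.dat.ord i = 2 ∨ Tits.dat.ord i = 3 → i = 1 ∨ i = 2 ∨ i = 3) _ (T.lt x) hx
    with h1 | h1 | h1
  · exact key 1 10240 h1 (by decide) (by decide +kernel) (by decide +kernel) (by decide +kernel)
  · exact key 2 1536 h1 (by decide) (by decide +kernel) (by decide +kernel) (by decide +kernel)
  · exact key 3 108 h1 (by decide) (by decide +kernel) (by decide +kernel) (by decide +kernel)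

/-- the elements of order 2 and 3 -/
theorem li_ten (h : Lie.IsoTits S) {p : ℕ} [Fact p.Prime] (hp : 5 ≠ p)
    (hc : chk 5 ((p, 0, 0, p) :: Ms) 3 20 (pts 5) = true) {x : S} (hx : orderOf x = 2 ∨ orderOf x = 3) :
    Li p x 10 := by
  obtain ⟨g, hg⟩ := exists_prod h hx
  have h1 := li_five h hp hc (g * x * g⁻¹ * x) (fun e => by rw [e, orderOf_one] at hg; cases hg)
    (hg ▸ pow_orderOf_eq_one _)
  exact Li.of_prod [(g, 1), (1, 1)] (by simpa using h1) (show 2 * (10 - 1) < 20 by decide)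

theorem inner_of {G : Type} [Group G] [Finite G] (D : TitsK.TData G) (e : S ≃* D.T)
    {α : MulAut S} (hα : α ^ 2 = 1) : ∃ x, α = MulAut.conj x := by
  obtain ⟨k, hk⟩ : ∃ k, MulAut.congr e α = MulAut.conj k :=
    by_contra fun h1 => D.no_outer_aut _ h1 (by rw [← map_mul, ← pow_two, hα, map_one])
  refine ⟨e.symm k, MulEquiv.ext fun y => e.injective ?_⟩
  have h2 : e (α (e.symm (e y))) = k * e y * k⁻¹ := DFunLike.congr_fun hk (e y)
  rw [e.symm_apply_apply] at h2
  rw [h2, MulAut.conj_apply, map_mul, map_mul, map_inv, e.apply_symm_apply]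

/-- there are no outer involutions -/
theorem inner (h : Lie.IsoTits S) {α : MulAut S} (hα : α ^ 2 = 1) : ∃ x, α = MulAut.conj x := by
  obtain ⟨f⟩ := h
  obtain ⟨e⟩ := TitsK.exists_equiv
  have e' : S ≃* TitsK.TT := f.trans e
  exact inner_of TitsK.tdata e' hα

theorem card_le (h : Lie.IsoTits S) (E : Subgroup (MulAut S)) (hE : ∀ α ∈ E, α ^ 2 = 1) : Nat.card E ≤ 2 ^ 5 := by
  have := TitsAut.finite_iso h
  have hZ := TitsAut.center_iso h
  have h1 : Function.Injective (MulAut.conj : S →* MulAut S) :=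
    (injective_iff_map_eq_one _).2 fun x => (conj_eq_one_iff hZ).1
  refine TitsK.rk_five h (MulAut S) (Inn S) ⟨(MonoidHom.ofInjective h1).symm⟩ ?_ E fun α hα => by
    rw [← pow_two, hE α hα]
  refine (eq_bot_iff_forall _).2 fun β hβ => MulEquiv.ext fun y => h1 ?_
  rw [conj_apply, ← hβ _ ⟨y, rfl⟩, mul_inv_cancel_right]
  rfl

theorem row_two (h : Lie.IsoTits S) : Row 2 S := by
  have hZ := TitsAut.center_iso h
  refine ⟨row88_two fun E hE r h1 h2 => Or.inr ?_, row89_of_lo fun E hE h1 => absurd (fun α hα => ?_) h1⟩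
  · obtain ⟨α, h3, h4⟩ := exists_ne_one (by omega) h2
    obtain ⟨x, rfl⟩ := inner h (hE.2 α h3)
    have h5 := (Nat.pow_le_pow_iff_right one_lt_two).1 (h2 ▸ card_le h E hE.2)
    have h6 : orderOf x = 2 := orderOf_eq_prime ((conj_eq_one_iff hZ).1 (by rw [map_pow, hE.2 _ h3]))
      fun e => h4 (by rw [e, map_one])
    exact ⟨_, h3, Lo.le (li_ten h (by decide) (by decide +kernel) (Or.inl h6)) (by omega)⟩
  · obtain ⟨x, rfl⟩ := inner h (hE.2 α hα)
    exact ⟨x, rfl⟩

theorem card_out (h : Lie.IsoTits S) : Nat.card (Out S) = 1 ∨ Nat.card (Out S) = 2 := by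
  have := TitsAut.finite_iso h
  have h1 := H867.TitsOut.card_out_le h
  have h2 : 0 < Nat.card (Out S) := Nat.card_pos
  omega

theorem noOff_three (h : Lie.IsoTits S) : haveI : Fact (Nat.Prime 3) := ⟨Nat.prime_three⟩
    NoOff 3 S := by
  have : Fact (Nat.Prime 3) := ⟨Nat.prime_three⟩
  have := TitsAut.finite_iso h
  have hZ := TitsAut.center_iso h
  refine noOff_of_le (r₀ := 3) (card_le_of_not_dvd ?_) fun α h1 h2 => ?_
  · rw [card_aut hZ, card_eq h]
    rcases card_out h with e | e <;> rw [e] <;> norm_num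
  · obtain ⟨x, rfl, h3, h4⟩ := exists_inner hZ (by rcases card_out h with e | e <;> rw [e] <;> norm_num) h1 h2
    exact Lo.le (li_ten h (by decide) (by decide +kernel) (Or.inr (orderOf_eq_prime h4 h3))) (by norm_num)

theorem noOff_big {p : ℕ} [hp : Fact p.Prime] (h2 : p ≠ 2) (h3 : p ≠ 3) : NoOff p Lie.TitsGroup := by
  have h : Lie.IsoTits Lie.TitsGroup := ⟨MulEquiv.refl _⟩
  have := TitsAut.finite_iso h
  have := Omega.TwoF.TitsAut.simple_iso h
  refine noOff_of_ls' H648.EPV.ls24_tits Nat.prime_two h2.symm S2115.result one_ne_zero (card_eq h).le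
    (H867.TitsOut.card_out_le h) ?_
  exact lt_of_lt_of_le (by norm_num) (Nat.pow_le_pow_left (hp.out.five_le_of_ne_two_of_ne_three h2 h3) 24)

/-- **the row of the Tits group** -/
theorem row (h : Lie.IsoTits S) (p : ℕ) [Fact p.Prime] : Row p S := by
  by_cases h2 : p = 2
  · subst h2
    exact row_two h
  by_cases h3 : p = 3
  · subst h3
    exact (noOff_three h).row
  obtain ⟨e⟩ := h
  exact (noOff_big h2 h3).row.of_equiv e

/-- **the box of the Tits group** -/
theorem boxTits : Box fun K _ => Lie.IsoTits K := fun p _ _ _ _ _ h _ _ => row h p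

end Cfsg.Agent.TwoF.XE.Tits
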